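import Mathlib
import Cfsg.Prelude.Def_Transfer
import Cfsg.Prelude.Def_Solvable
import Cfsg.Agent.H686.CharKit

/-!
# Characters vanishing on all but two conjugacy classes (Gagola characters)
-/

set_option autoImplicit false
set_option linter.unusedSectionVars false

namespace Cfsg.Agent.H686.Gagola

open Cfsg Cfsg.Agent.Characters Cfsg.Agent.H686.CharKit
open scoped ComplexConjugate

universe u

variable {G : Type u} [Group G] [Finite G]

/-- The nonzero values are taken on `1` and the class of `x`. -/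
structure Dat (χ : IrrCharacter G) (x : G) : Prop where
  ne_one : x ≠ 1
  ne_zero : (χ : G → ℂ) x ≠ 0
  supp : ∀ g, (χ : G → ℂ) g ≠ 0 → g = 1 ∨ IsConj x g

theorem exists_dat (χ : IrrCharacter G)
    (hχ : Nat.card {C : ConjClasses G // ∃ g ∈ C.carrier, (χ : G → ℂ) g ≠ 0} = 2) :
    ∃ x : G, Dat χ x := by
  classical
  obtain ⟨a, b, hab, huniv⟩ := Nat.card_eq_two_iff.1 hχ
  have hmem : ∀ c : {C : ConjClasses G // ∃ g ∈ C.carrier, (χ : G → ℂ) g ≠ 0}, c = a ∨ c = b := by
    intro c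
    have : c ∈ ({a, b} : Set _) := by rw [huniv]; exact Set.mem_univ _
    simpa using this
  let o : {C : ConjClasses G // ∃ g ∈ C.carrier, (χ : G → ℂ) g ≠ 0} :=
    ⟨ConjClasses.mk 1, 1, ConjClasses.mem_carrier_mk, Core.isIrr_apply_one_ne_zero χ.2⟩
  have key : ∀ c : {C : ConjClasses G // ∃ g ∈ C.carrier, (χ : G → ℂ) g ≠ 0}, c ≠ o →
      (∀ d, d = o ∨ d = c) → ∃ x : G, Dat χ x := by
    intro c hc hd
    obtain ⟨C, x, hxC, hx⟩ := c
    rw [ConjClasses.mem_carrier_iff_mk_eq] at hxC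
    refine ⟨x, ?_, hx, ?_⟩
    · rintro rfl
      exact hc (Subtype.ext hxC.symm)
    · intro g hg
      rcases hd ⟨ConjClasses.mk g, g, ConjClasses.mem_carrier_mk, hg⟩ with h | h
      · left
        have h1 : ConjClasses.mk g = ConjClasses.mk (1 : G) := congrArg Subtype.val h
        rw [ConjClasses.mk_eq_mk_iff_isConj, isConj_one_left] at h1
        exact h1
      · right
        have h1 : ConjClasses.mk g = C := congrArg Subtype.val h
        rw [← hxC, ConjClasses.mk_eq_mk_iff_isConj] at h1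
        exact h1.symm
  rcases hmem o with h | h
  · exact key b (fun hb => hab (by rw [hb, h])) (fun d => by
      rcases hmem d with h1 | h1
      · left; rw [h1, h]
      · right; exact h1)
  · exact key a (fun ha => hab (by rw [ha, h])) (fun d => by
      rcases hmem d with h1 | h1
      · right; exact h1
      · left; rw [h1, h])

variable {χ : IrrCharacter G} {x : G}

/-- The class size as a natural number. -/
noncomputable def cls (x : G) : ℕ := Nat.card {y : G // IsConj x y}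

theorem cls_eq [Fintype G] (x : G) [DecidablePred fun y : G => IsConj x y] :
    (Finset.univ.filter fun y : G => IsConj x y).card = cls x := by
  rw [cls, Nat.card_eq_fintype_card, Fintype.card_subtype]

theorem cls_mul (x : G) : cls x * Nat.card (Subgroup.centralizer ({x} : Set G)) = Nat.card G := by
  classical
  have : Fintype G := Fintype.ofFinite G
  rw [← cls_eq, card_class_mul_centralizer]

theorem cls_pos (x : G) : 0 < cls x := by
  have : Nonempty {y : G // IsConj x y} := ⟨⟨x, IsConj.refl x⟩⟩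
  exact Nat.card_pos

/-- `χ` is not the principal character. -/
theorem ne_principal (hG : 2 < Nat.card G) (h : Dat χ x) : (χ : G → ℂ) ≠ 1 := by
  classical
  intro h1
  have : Fintype G := Fintype.ofFinite G
  have : Finite (IrrCharacter G) := Core.finite_irr
  have : Fintype (IrrCharacter G) := Fintype.ofFinite _
  have hall : ∀ g : G, g = 1 ∨ IsConj x g := fun g => h.supp g (by rw [h1]; exact one_ne_zero)
  -- the group has exactly two classes
  have hcls : cls x + 1 = Nat.card G := by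
    rw [← cls_eq, Nat.card_eq_fintype_card, ← Finset.card_univ]
    have h2 : (Finset.univ : Finset G) = insert 1 (Finset.univ.filter fun y : G => IsConj x y) := by
      ext g
      simp only [Finset.mem_univ, Finset.mem_insert, Finset.mem_filter, true_and, true_iff]
      exact hall g
    have h5 : (Finset.univ : Finset G).card
        = (Finset.univ.filter fun y : G => IsConj x y).card + 1 := by
      conv_lhs => rw [h2]
      refine Finset.card_insert_of_notMem fun h3 => ?_
      have h4 := (Finset.mem_filter.1 h3).2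
      rw [isConj_one_left] at h4
      exact h.ne_one h4
    exact h5.symm
  have h2 := cls_mul x
  have h3 : cls x ∣ 1 := by
    have h4 : cls x ∣ Nat.card G := ⟨_, h2.symm⟩
    rw [← hcls] at h4
    exact (Nat.dvd_add_right (dvd_refl _)).1 h4
  have h4 : cls x = 1 := Nat.dvd_one.1 h3
  omega

theorem ne_principal' (hG : 2 < Nat.card G) (h : Dat χ x) :
    (⟨1, Core.isIrr_one⟩ : IrrCharacter G) ≠ χ := by
  intro h1
  exact ne_principal hG h (congrArg Subtype.val h1).symm

/-- `χ 1 + |C| χ x = 0`. -/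
theorem value (hG : 2 < Nat.card G) (h : Dat χ x) :
    (χ : G → ℂ) 1 + (cls x : ℂ) * (χ : G → ℂ) x = 0 := by
  classical
  have : Fintype G := Fintype.ofFinite G
  have h1 := Core.classInner_irr_ne χ.2 (Core.isIrr_one (G := G)) (ne_principal hG h)
  rw [Core.classInner_def] at h1
  have h2 : ∑ g : G, (χ : G → ℂ) g * conj ((1 : G → ℂ) g) = ∑ g : G, (χ : G → ℂ) g :=
    Finset.sum_congr rfl fun g _ => by rw [Pi.one_apply, map_one, mul_one]
  rw [h2, sum_class (Core.isIrr_isClassFunction χ.2) h.ne_one h.supp, cls_eq] at h1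
  rcases mul_eq_zero.1 h1 with h3 | h3
  · exact absurd h3 (inv_ne_zero Core.card_ne_zero_complex)
  · exact h3

/-- `x` lies in the kernel of every other irreducible character. -/
theorem apply_eq (hG : 2 < Nat.card G) (h : Dat χ x) {ψ : IrrCharacter G} (hψ : ψ ≠ χ) :
    (ψ : G → ℂ) x = (ψ : G → ℂ) 1 := by
  classical
  have : Fintype G := Fintype.ofFinite G
  have h1 := Core.classInner_irr_ne ψ.2 χ.2 (fun h2 => hψ (Subtype.ext h2))
  rw [Core.classInner_def] at h1
  have h2 : IsClassFunction G fun g : G => (ψ : G → ℂ) g * conj ((χ : G → ℂ) g) := by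
    intro a b
    show (ψ : G → ℂ) (b * a * b⁻¹) * conj ((χ : G → ℂ) (b * a * b⁻¹)) = _
    rw [Core.isIrr_isClassFunction ψ.2, Core.isIrr_isClassFunction χ.2]
  rw [sum_class h2 h.ne_one (fun g hg => h.supp g fun h3 => hg (by
    show (ψ : G → ℂ) g * conj ((χ : G → ℂ) g) = 0
    rw [h3, map_zero, mul_zero])), cls_eq] at h1
  rcases mul_eq_zero.1 h1 with h3 | h3
  · exact absurd h3 (inv_ne_zero Core.card_ne_zero_complex)
  have h4 := value hG h
  have h5 : conj ((χ : G → ℂ) 1) + (cls x : ℂ) * conj ((χ : G → ℂ) x) = 0 := by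
    have := congrArg (starRingEnd ℂ) h4
    rwa [map_add, map_mul, Complex.conj_natCast, map_zero] at this
  have h6 : conj ((χ : G → ℂ) 1) ≠ 0 := by
    rw [Ne, map_eq_zero]
    exact Core.isIrr_apply_one_ne_zero χ.2
  have h7 : ((ψ : G → ℂ) 1 - (ψ : G → ℂ) x) * conj ((χ : G → ℂ) 1) = 0 := by
    linear_combination h3 - (ψ : G → ℂ) x * h5
  rcases mul_eq_zero.1 h7 with h8 | h8
  · exact (sub_eq_zero.1 h8).symm
  · exact absurd h8 h6

/-- The intersection of the kernels of the other irreducible characters. -/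
def nrm (χ : IrrCharacter G) : Subgroup G := ⨅ ψ : {ψ : IrrCharacter G // ψ ≠ χ}, chKer ψ.1

theorem mem_nrm {χ : IrrCharacter G} {g : G} :
    g ∈ nrm χ ↔ ∀ ψ : IrrCharacter G, ψ ≠ χ → (ψ : G → ℂ) g = (ψ : G → ℂ) 1 := by
  rw [nrm, Subgroup.mem_iInf]
  exact ⟨fun h ψ hψ => h ⟨ψ, hψ⟩, fun h ψ => h ψ.1 ψ.2⟩

instance nrm_normal (χ : IrrCharacter G) : (nrm χ).Normal := by
  constructor
  intro n hn g
  rw [mem_nrm] at hn ⊢
  intro ψ hψ
  rw [Core.isIrr_isClassFunction ψ.2]
  exact hn ψ hψ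

theorem mem_nrm_iff (hG : 2 < Nat.card G) (h : Dat χ x) (g : G) :
    g ∈ nrm χ ↔ g = 1 ∨ IsConj x g := by
  classical
  have : Fintype G := Fintype.ofFinite G
  have : Finite (IrrCharacter G) := Core.finite_irr
  have : Fintype (IrrCharacter G) := Fintype.ofFinite _
  constructor
  · intro hg
    by_cases hg1 : g = 1
    · exact Or.inl hg1
    rw [mem_nrm] at hg
    refine h.supp g ?_
    intro h0
    have h1 := col_orth g 1
    have hnc : ¬ IsConj g 1 := by
      rw [isConj_one_left]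
      exact hg1
    rw [if_neg hnc] at h1
    have h2 : ∀ ψ : IrrCharacter G, (ψ : G → ℂ) g * conj ((ψ : G → ℂ) 1)
        = if ψ = χ then 0 else ((charDegree (ψ : G → ℂ) ^ 2 : ℕ) : ℂ) := by
      intro ψ
      split_ifs with h3
      · rw [h3, h0, zero_mul]
      · rw [hg ψ h3, Nat.cast_pow, charDegree_irr, sq, ← charDegree_irr, Complex.conj_natCast]
    rw [Finset.sum_congr rfl fun ψ _ => h2 ψ] at h1
    have h3 : ∑ ψ : IrrCharacter G, (if ψ = χ then (0 : ℂ) else ((charDegree (ψ : G → ℂ) ^ 2 : ℕ) : ℂ))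
        = ((∑ ψ : IrrCharacter G, if ψ = χ then 0 else charDegree (ψ : G → ℂ) ^ 2 : ℕ) : ℂ) := by
      rw [Nat.cast_sum]
      refine Finset.sum_congr rfl fun ψ _ => ?_
      split_ifs <;> simp
    rw [h3, Nat.cast_eq_zero, Finset.sum_eq_zero_iff] at h1
    have h4 := h1 ⟨1, Core.isIrr_one⟩ (Finset.mem_univ _)
    rw [if_neg (ne_principal' hG h)] at h4
    have h5 := charDegree_pos (⟨1, Core.isIrr_one⟩ : IrrCharacter G)
    exact absurd h4 (pow_ne_zero 2 h5.ne')
  · rintro (rfl | hg)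
    · exact one_mem _
    · rw [mem_nrm]
      intro ψ hψ
      rw [← Core.classFunction_apply_eq (Core.isIrr_isClassFunction ψ.2) hg]
      exact apply_eq hG h hψ

theorem ne_zero_iff (hG : 2 < Nat.card G) (h : Dat χ x) (g : G) :
    (χ : G → ℂ) g ≠ 0 ↔ g ∈ nrm χ := by
  rw [mem_nrm_iff hG h]
  constructor
  · exact h.supp g
  · rintro (rfl | hg)
    · exact Core.isIrr_apply_one_ne_zero χ.2
    · rw [← Core.classFunction_apply_eq (Core.isIrr_isClassFunction χ.2) hg]
      exact h.ne_zero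

theorem faithful (hG : 2 < Nat.card G) (h : Dat χ x) {g : G}
    (hg : (χ : G → ℂ) g = (χ : G → ℂ) 1) : g = 1 := by
  by_contra hg1
  have h1 : (χ : G → ℂ) g ≠ 0 := by
    rw [hg]
    exact Core.isIrr_apply_one_ne_zero χ.2
  rcases h.supp g h1 with h2 | h2
  · exact hg1 h2
  · have h3 := value hG h
    rw [Core.classFunction_apply_eq (Core.isIrr_isClassFunction χ.2) h2, hg] at h3
    have h4 : ((cls x : ℂ) + 1) * (χ : G → ℂ) 1 = 0 := by linear_combination h3
    rcases mul_eq_zero.1 h4 with h5 | h5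
    · have : ((cls x + 1 : ℕ) : ℂ) = 0 := by push_cast; exact h5
      rw [Nat.cast_eq_zero] at this
      omega
    · exact Core.isIrr_apply_one_ne_zero χ.2 h5

theorem nrm_ne_bot (hG : 2 < Nat.card G) (h : Dat χ x) : nrm χ ≠ ⊥ := by
  intro h1
  have h2 : x ∈ nrm χ := (mem_nrm_iff hG h x).2 (Or.inr (IsConj.refl x))
  rw [h1, Subgroup.mem_bot] at h2
  exact h.ne_one h2

theorem conj_of_mem (hG : 2 < Nat.card G) (h : Dat χ x) {a b : G} (ha : a ∈ nrm χ)
    (hb : b ∈ nrm χ) (ha1 : a ≠ 1) (hb1 : b ≠ 1) : ∃ g : G, g * a * g⁻¹ = b := by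
  have h1 := ((mem_nrm_iff hG h a).1 ha).resolve_left ha1
  have h2 := ((mem_nrm_iff hG h b).1 hb).resolve_left hb1
  exact isConj_iff.1 (h1.symm.trans h2)

theorem nrm_le (hG : 2 < Nat.card G) (h : Dat χ x) {K : Subgroup G} [K.Normal] (hK : K ≠ ⊥) :
    nrm χ ≤ K := by
  intro g hg
  refine mem_of_forall_chKer K fun ψ hψ => ?_
  rw [mem_nrm] at hg
  by_cases hψχ : ψ = χ
  · exfalso
    subst hψχ
    apply hK
    rw [eq_bot_iff]
    intro k hk
    exact Subgroup.mem_bot.2 (faithful hG h (hψ hk))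
  · exact hg ψ hψχ

/-- The orders of the nonidentity elements of `nrm χ` are one prime. -/
theorem exists_prime (hG : 2 < Nat.card G) (h : Dat χ x) :
    ∃ p : ℕ, p.Prime ∧ ∀ g ∈ nrm χ, g ≠ 1 → orderOf g = p := by
  have hx : x ∈ nrm χ := (mem_nrm_iff hG h x).2 (Or.inr (IsConj.refl x))
  have hox : orderOf x ≠ 1 := by
    rw [Ne, orderOf_eq_one_iff]
    exact h.ne_one
  obtain ⟨p, hp, hpd⟩ := Nat.exists_prime_and_dvd hox
  refine ⟨p, hp, ?_⟩
  have h1 : orderOf (x ^ (orderOf x / p)) = p :=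
    orderOf_pow_orderOf_div (orderOf_pos x).ne' hpd
  intro g hg hg1
  have h2 : x ^ (orderOf x / p) ∈ nrm χ := pow_mem hx _
  have h3 : x ^ (orderOf x / p) ≠ 1 := by
    intro h4
    rw [h4, orderOf_one] at h1
    exact hp.one_lt.ne h1
  obtain ⟨c, hc⟩ := conj_of_mem hG h h2 hg h3 hg1
  have h4 := (MulAut.conj c).orderOf_eq (x ^ (orderOf x / p))
  rw [MulAut.conj_apply, hc, h1] at h4
  exact h4

theorem isPGroup_nrm (hG : 2 < Nat.card G) (h : Dat χ x) :
    ∃ p : ℕ, p.Prime ∧ (∀ g ∈ nrm χ, g ^ p = 1) ∧ IsPGroup p (nrm χ) := by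
  obtain ⟨p, hp, hord⟩ := exists_prime hG h
  have h1 : ∀ g ∈ nrm χ, g ^ p = 1 := by
    intro g hg
    by_cases hg1 : g = 1
    · rw [hg1, one_pow]
    · rw [← hord g hg hg1]
      exact pow_orderOf_eq_one g
  refine ⟨p, hp, h1, fun g => ⟨1, ?_⟩⟩
  rw [pow_one]
  exact Subtype.ext (h1 g g.2)

theorem comm_nrm (hG : 2 < Nat.card G) (h : Dat χ x) : IsMulCommutative (nrm χ) := by
  obtain ⟨p, hp, -, hpg⟩ := isPGroup_nrm hG h
  have : Fact p.Prime := ⟨hp⟩
  have : Nontrivial (nrm χ) := (Subgroup.nontrivial_iff_ne_bot _).2 (nrm_ne_bot hG h)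
  have h1 := hpg.bot_lt_center
  have h2 : ((Subgroup.center (nrm χ)).map (nrm χ).subtype) ≠ ⊥ := by
    rw [Ne, Subgroup.map_eq_bot_iff_of_injective _ (Subgroup.subtype_injective _)]
    exact h1.ne'
  have h3 := nrm_le hG h (K := (Subgroup.center (nrm χ)).map (nrm χ).subtype) h2
  refine ⟨⟨fun a b => ?_⟩⟩
  obtain ⟨c, hc, hca⟩ := Subgroup.mem_map.1 (h3 a.2)
  have h4 : c = a := Subtype.ext hca
  rw [← h4]
  exact (Subgroup.mem_center_iff.1 hc b).symm

theorem isElementaryAbelian_nrm (hG : 2 < Nat.card G) (h : Dat χ x) :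
    ∃ p : ℕ, p.Prime ∧ IsElementaryAbelian p (nrm χ) := by
  obtain ⟨p, hp, h1, -⟩ := isPGroup_nrm hG h
  exact ⟨p, hp, comm_nrm hG h, h1⟩

/-! ### Arithmetic -/

theorem dat_of_mem (hG : 2 < Nat.card G) (h : Dat χ x) {y : G} (hy : y ∈ nrm χ) (hy1 : y ≠ 1) :
    Dat χ y where
  ne_one := hy1
  ne_zero := (ne_zero_iff hG h y).2 hy
  supp := by
    intro g hg
    rcases h.supp g hg with h1 | h1
    · exact Or.inl h1
    · right
      exact (((mem_nrm_iff hG h y).1 hy).resolve_left hy1).symm.trans h1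

theorem card_nrm (hG : 2 < Nat.card G) (h : Dat χ x) : Nat.card (nrm χ) = cls x + 1 := by
  classical
  have : Fintype G := Fintype.ofFinite G
  have h2 : Nat.card (nrm χ) = (insert 1 (Finset.univ.filter fun y : G => IsConj x y)).card := by
    rw [← Nat.card_eq_finsetCard]
    refine Nat.card_congr (Equiv.subtypeEquivRight fun g => ?_)
    rw [mem_nrm_iff hG h]
    simp only [Finset.mem_insert, Finset.mem_filter, Finset.mem_univ, true_and]
  rw [h2, Finset.card_insert_of_notMem, cls_eq]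
  intro h3
  have h4 := (Finset.mem_filter.1 h3).2
  rw [isConj_one_left] at h4
  exact h.ne_one h4

/-- `χ 1 = m |C|`, `χ x = -m`, `|C_G(x)| = m ^ 2 |N|`. -/
theorem exists_m (hG : 2 < Nat.card G) (h : Dat χ x) :
    ∃ m : ℕ, 0 < m ∧ charDegree (χ : G → ℂ) = m * cls x ∧ (χ : G → ℂ) x = -(m : ℂ) ∧
      Nat.card (Subgroup.centralizer ({x} : Set G)) = m ^ 2 * Nat.card (nrm χ) := by
  classical
  have : Fintype G := Fintype.ofFinite G
  have hv := value hG h
  have hcls : (cls x : ℂ) ≠ 0 := by exact_mod_cast (cls_pos x).ne'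
  have hint : IsIntegral ℤ ((χ : G → ℂ) x) := by
    obtain ⟨n, ρ, hρ, hρχ⟩ := χ.2
    rw [← hρχ]
    exact Values.character_isIntegral ρ x
  have hval : (χ : G → ℂ) x = ((-(charDegree (χ : G → ℂ) : ℚ) / cls x : ℚ) : ℂ) := by
    push_cast
    rw [charDegree_irr, eq_div_iff hcls]
    linear_combination hv
  rw [hval] at hint
  have hint' : IsIntegral ℤ (-(charDegree (χ : G → ℂ) : ℚ) / cls x) :=
    (isIntegral_algebraMap_iff (algebraMap ℚ ℂ).injective).1 hint
  obtain ⟨z, hz⟩ := IsIntegrallyClosed.isIntegral_iff.1 hint'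
  have hz' : (z : ℚ) = -(charDegree (χ : G → ℂ) : ℚ) / cls x := by
    rw [← hz]; rfl
  have hclsq : (cls x : ℚ) ≠ 0 := by exact_mod_cast (cls_pos x).ne'
  have hzd : (z : ℚ) * cls x = -(charDegree (χ : G → ℂ) : ℚ) := by
    rw [hz', div_mul_cancel₀ _ hclsq]
  have hzd' : z * (cls x : ℤ) = -(charDegree (χ : G → ℂ) : ℤ) := by exact_mod_cast hzd
  have hdeg := charDegree_pos χ
  have hc := cls_pos x
  have hz0 : z < 0 := by
    by_contra hcon
    push Not at hcon
    have : 0 ≤ z * (cls x : ℤ) := mul_nonneg hcon (by positivity)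
    have h2 : (0 : ℤ) < charDegree (χ : G → ℂ) := by exact_mod_cast hdeg
    omega
  obtain ⟨m, hm⟩ := Int.exists_eq_neg_ofNat hz0.le
  have hm0 : 0 < m := by omega
  subst hm
  have hdm : charDegree (χ : G → ℂ) = m * cls x := by
    have : (charDegree (χ : G → ℂ) : ℤ) = m * cls x := by
      rw [neg_mul, neg_inj] at hzd'
      exact hzd'.symm
    exact_mod_cast this
  have hxm : (χ : G → ℂ) x = -(m : ℂ) := by
    rw [hval, ← hz']
    push_cast
    rfl
  refine ⟨m, hm0, hdm, hxm, ?_⟩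
  -- the norm of `χ`
  have h1 := Core.classInner_irr_self χ.2
  rw [Core.classInner_def] at h1
  have h2 : IsClassFunction G fun g : G => (χ : G → ℂ) g * conj ((χ : G → ℂ) g) := by
    intro a b
    show (χ : G → ℂ) (b * a * b⁻¹) * conj ((χ : G → ℂ) (b * a * b⁻¹)) = _
    rw [Core.isIrr_isClassFunction χ.2]
  rw [sum_class h2 h.ne_one (fun g hg => h.supp g fun h3 => hg (by
    show (χ : G → ℂ) g * conj ((χ : G → ℂ) g) = 0
    rw [h3, zero_mul])), cls_eq, hxm, ← charDegree_irr, hdm] at h1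
  have h3 : ((m * cls x : ℕ) : ℂ) * conj ((m * cls x : ℕ) : ℂ) + (cls x : ℂ) * (-(m : ℂ) * conj (-(m : ℂ)))
      = (Nat.card G : ℂ) := by
    have h4 := congrArg (fun t => (Nat.card G : ℂ) * t) h1
    beta_reduce at h4
    rw [mul_inv_cancel_left₀ Core.card_ne_zero_complex, mul_one] at h4
    exact h4
  rw [Complex.conj_natCast, map_neg, Complex.conj_natCast, neg_mul_neg] at h3
  have h5 : (m * cls x) * (m * cls x) + cls x * (m * m) = Nat.card G := by exact_mod_cast h3
  have h6 := cls_mul x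
  rw [← h5] at h6
  have h7 : cls x * Nat.card (Subgroup.centralizer ({x} : Set G))
      = cls x * (m ^ 2 * Nat.card (nrm χ)) := by
    rw [h6, card_nrm hG h]
    ring
  exact Nat.eq_of_mul_eq_mul_left hc h7

/-- `m` is a power of `p`: no other prime divides it. -/
theorem not_dvd_m (hG : 2 < Nat.card G) (h : Dat χ x) {p : ℕ} (hp : p.Prime)
    (hpg : IsPGroup p (nrm χ)) {m : ℕ} (hm : 0 < m)
    (hdeg : charDegree (χ : G → ℂ) = m * cls x)
    (hcen : Nat.card (Subgroup.centralizer ({x} : Set G)) = m ^ 2 * Nat.card (nrm χ))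
    {r : ℕ} (hr : r.Prime) (hrp : r ≠ p) : ¬ r ∣ m := by
  intro hrm
  have : Fact r.Prime := ⟨hr⟩
  have : Fact p.Prime := ⟨hp⟩
  have : Fintype G := Fintype.ofFinite G
  obtain ⟨Q⟩ : Nonempty (Sylow r G) := inferInstance
  -- `χ` vanishes on the nonidentity elements of `Q`
  have hvan : ∀ g ∈ (Q : Subgroup G), g ≠ 1 → (χ : G → ℂ) g = 0 := by
    intro g hg hg1
    by_contra hne
    have h1 : g ∈ nrm χ := (ne_zero_iff hG h g).1 hne
    obtain ⟨a, ha⟩ := (IsPGroup.iff_orderOf.1 hpg) ⟨g, h1⟩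
    obtain ⟨b, hb⟩ := (IsPGroup.iff_orderOf.1 Q.2) ⟨g, hg⟩
    rw [Subgroup.orderOf_mk] at ha hb
    have h2 : p ^ a = r ^ b := by rw [← ha, ← hb]
    rcases Nat.eq_zero_or_pos b with hb0 | hb0
    · rw [hb0, pow_zero, orderOf_eq_one_iff] at hb
      exact hg1 hb
    · have h3 : r ∣ p ^ a := by
        rw [h2]
        exact dvd_pow_self r hb0.ne'
      exact hrp ((Nat.prime_dvd_prime_iff_eq hr hp).1 (hr.dvd_of_dvd_pow h3))
  -- hence `|Q|` divides the degree
  have hdvd : Nat.card Q ∣ charDegree (χ : G → ℂ) := by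
    have : Fintype (Q : Subgroup G) := Fintype.ofFinite _
    obtain ⟨k, hk⟩ := Core.classInner_isNat
      (Clifford.isCharacter_restrict (Q : Subgroup G) (Core.isIrr_isCharacter χ.2))
      (Core.isCharacter_one (G := (Q : Subgroup G)))
    rw [Core.classInner_def, Finset.sum_eq_single 1] at hk
    · simp only [OneMemClass.coe_one, Pi.one_apply, map_one, mul_one] at hk
      rw [← charDegree_irr, inv_mul_eq_iff_eq_mul₀ Core.card_ne_zero_complex] at hk
      have hk' : charDegree (χ : G → ℂ) = Nat.card Q * k := by exact_mod_cast hk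
      exact ⟨k, hk'⟩
    · intro b _ hb
      rw [hvan b b.2 (fun h1 => hb (Subtype.ext h1)), zero_mul]
    · intro h1
      exact absurd (Finset.mem_univ _) h1
  have hG' : Nat.card G = cls x * (m ^ 2 * Nat.card (nrm χ)) := by
    rw [← hcen, cls_mul]
  rw [Sylow.card_eq_multiplicity, hdeg, hG'] at hdvd
  have hn : Nat.card (nrm χ) ≠ 0 := Nat.card_pos.ne'
  have h3 : (cls x * (m ^ 2 * Nat.card (nrm χ))).factorization r ≤ (m * cls x).factorization r :=
    (hr.pow_dvd_iff_le_factorization (mul_ne_zero hm.ne' (cls_pos x).ne')).1 hdvd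
  rw [Nat.factorization_mul (cls_pos x).ne' (mul_ne_zero (pow_ne_zero 2 hm.ne') hn),
    Nat.factorization_mul (pow_ne_zero 2 hm.ne') hn, Nat.factorization_pow,
    Nat.factorization_mul hm.ne' (cls_pos x).ne'] at h3
  simp only [Finsupp.add_apply, Finsupp.smul_apply, smul_eq_mul] at h3
  have h4 : 1 ≤ m.factorization r := by
    rw [← hr.dvd_iff_one_le_factorization hm.ne']
    exact hrm
  omega

/-- The centralizer of `x` is a `p`-group. -/
theorem isPGroup_centralizer (hG : 2 < Nat.card G) (h : Dat χ x) {p : ℕ} (hp : p.Prime)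
    (hpg : IsPGroup p (nrm χ)) : IsPGroup p (Subgroup.centralizer ({x} : Set G)) := by
  have : Fact p.Prime := ⟨hp⟩
  obtain ⟨m, hm, hdeg, -, hcen⟩ := exists_m hG h
  obtain ⟨a, ha⟩ := IsPGroup.iff_card.1 hpg
  have h1 : m = p ^ (m.primeFactorsList.length) := by
    refine Nat.eq_prime_pow_of_unique_prime_dvd hm.ne' ?_
    intro d hd hdm
    by_contra hne
    exact not_dvd_m hG h hp hpg hm hdeg hcen hd hne hdm
  refine IsPGroup.iff_card.2 ⟨m.primeFactorsList.length * 2 + a, ?_⟩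
  rw [hcen, ha, pow_add, pow_mul, ← h1]

theorem cls_coprime (hG : 2 < Nat.card G) (h : Dat χ x) {p : ℕ} (hp : p.Prime)
    (hpg : IsPGroup p (nrm χ)) : ¬ p ∣ cls x := by
  intro h1
  have : Fact p.Prime := ⟨hp⟩
  obtain ⟨a, ha⟩ := IsPGroup.iff_card.1 hpg
  have h2 := card_nrm hG h
  have h3 : a ≠ 0 := by
    rintro rfl
    rw [pow_zero] at ha
    have := cls_pos x
    omega
  have h4 : p ∣ cls x + 1 := by
    rw [← h2, ha]
    exact dvd_pow_self p h3
  have h5 := (Nat.dvd_add_right h1).1 h4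
  exact hp.one_lt.ne' (Nat.dvd_one.1 h5)

theorem index_centralizer (x : G) : (Subgroup.centralizer ({x} : Set G)).index = cls x := by
  have h1 := cls_mul x
  have h2 := Subgroup.index_mul_card (Subgroup.centralizer ({x} : Set G))
  exact Nat.eq_of_mul_eq_mul_right Nat.card_pos (by rw [h2, h1])

theorem exists_sylow (hG : 2 < Nat.card G) (h : Dat χ x) {p : ℕ} [hp : Fact p.Prime]
    (hpg : IsPGroup p (nrm χ)) :
    ∃ P : Sylow p G, Subgroup.centralizer ({x} : Set G) = P := by
  refine ⟨(isPGroup_centralizer hG h hp.out hpg).toSylow ?_, rfl⟩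
  rw [index_centralizer]
  exact cls_coprime hG h hp.out hpg

/-! ### The characters of `nrm χ` -/

/-- The multiplicity of a nonprincipal character of `nrm χ` in `χ` is not zero. -/
theorem mult_ne_zero (hG : 2 < Nat.card G) (h : Dat χ x) [Fintype (nrm χ)]
    {μ : IrrCharacter (nrm χ)} (hμ : (μ : nrm χ → ℂ) ≠ 1) :
    classInner (fun n : nrm χ => (χ : G → ℂ) n) (μ : nrm χ → ℂ) ≠ 0 := by
  classical
  obtain ⟨m, hm, hdeg, hxm, -⟩ := exists_m hG h
  have h1 := Core.classInner_irr_ne (Core.isIrr_one (G := nrm χ)) μ.2 (Ne.symm hμ)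
  rw [Core.classInner_def] at h1 ⊢
  have h2 : ∑ n : nrm χ, (1 : nrm χ → ℂ) n * conj ((μ : nrm χ → ℂ) n) = 0 :=
    (mul_eq_zero.1 h1).resolve_left (inv_ne_zero Core.card_ne_zero_complex)
  have h3 : ∀ n : nrm χ, (χ : G → ℂ) n * conj ((μ : nrm χ → ℂ) n)
      = -(m : ℂ) * ((1 : nrm χ → ℂ) n * conj ((μ : nrm χ → ℂ) n))
        + if n = 1 then ((m * cls x + m : ℕ) : ℂ) * conj ((μ : nrm χ → ℂ) n) else 0 := by
    intro n
    split_ifs with hn
    · subst hn
      rw [OneMemClass.coe_one, ← charDegree_irr, hdeg]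
      push_cast
      rw [Pi.one_apply]
      ring
    · have h4 : (n : G) ≠ 1 := fun h5 => hn (Subtype.ext h5)
      have h5 := ((mem_nrm_iff hG h n).1 n.2).resolve_left h4
      rw [← Core.classFunction_apply_eq (Core.isIrr_isClassFunction χ.2) h5, hxm, Pi.one_apply]
      ring
  rw [Finset.sum_congr rfl fun n _ => h3 n, Finset.sum_add_distrib, ← Finset.mul_sum, h2, mul_zero,
    zero_add, Finset.sum_ite_eq' Finset.univ (1 : nrm χ), if_pos (Finset.mem_univ _)]
  refine mul_ne_zero (inv_ne_zero Core.card_ne_zero_complex) (mul_ne_zero ?_ ?_)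
  · rw [Nat.cast_ne_zero]
    omega
  · rw [Ne, map_eq_zero]
    exact Core.isIrr_apply_one_ne_zero μ.2

theorem exists_conj_char (hG : 2 < Nat.card G) (h : Dat χ x)
    {μ ν : IrrCharacter (nrm χ)} (hμ : (μ : nrm χ → ℂ) ≠ 1) (hν : (ν : nrm χ → ℂ) ≠ 1) :
    ∃ g : G, (ν : nrm χ → ℂ) = (μ : nrm χ → ℂ) ∘ (MulAut.conjNormal g : MulAut (nrm χ)) := by
  have : Fintype G := Fintype.ofFinite G
  have : Fintype (nrm χ) := Fintype.ofFinite _
  exact Clifford.exists_conj_of_constituents (nrm χ) χ.2 μ.2 ν.2 (mult_ne_zero hG h hμ)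
    (mult_ne_zero hG h hν)

theorem inertia_index_eq (hG : 2 < Nat.card G) (h : Dat χ x)
    {μ : IrrCharacter (nrm χ)} (hμ : (μ : nrm χ → ℂ) ≠ 1) :
    (inertia (nrm χ) μ).index = cls x := by
  classical
  have hcomm := comm_nrm hG h
  rw [inertia_index]
  have h1 : ∀ ψ : IrrCharacter (nrm χ), (∃ g : G, (ψ : nrm χ → ℂ)
      = (μ : nrm χ → ℂ) ∘ (MulAut.conjNormal g : MulAut (nrm χ))) ↔
        ψ ≠ ⟨1, Core.isIrr_one⟩ := by
    intro ψ
    constructor
    · rintro ⟨g, hg⟩ h1
      apply hμ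
      funext n
      have h2 := congrFun hg ((MulAut.conjNormal g : MulAut (nrm χ)).symm n)
      rw [h1] at h2
      simp only [Function.comp_apply, MulEquiv.apply_symm_apply] at h2
      rw [← h2]
      rfl
    · intro hψ
      exact exists_conj_char hG h hμ (fun h2 => hψ (Subtype.ext h2))
  rw [Nat.card_congr (Equiv.subtypeEquivRight h1)]
  have h2 : Nat.card (IrrCharacter (nrm χ)) = Nat.card (nrm χ) := by
    rw [Core.card_irr]
    refine Nat.card_congr (Equiv.ofBijective ConjClasses.mk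
      ⟨fun a b hab => ?_, ConjClasses.mk_surjective⟩).symm
    rw [ConjClasses.mk_eq_mk_iff_isConj] at hab
    obtain ⟨c, hc⟩ := isConj_iff.1 hab
    rw [← hc, hcomm.is_comm.comm c a, mul_inv_cancel_right]
  have : Finite (IrrCharacter (nrm χ)) := Core.finite_irr
  have : Fintype (IrrCharacter (nrm χ)) := Fintype.ofFinite _
  rw [card_nrm hG h, Nat.card_eq_fintype_card] at h2
  rw [Nat.card_eq_fintype_card, Fintype.card_subtype_compl, Fintype.card_subtype_eq, h2]
  omega

theorem exists_sylow_inertia (hG : 2 < Nat.card G) (h : Dat χ x) {p : ℕ} [hp : Fact p.Prime]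
    (hpg : IsPGroup p (nrm χ)) {μ : IrrCharacter (nrm χ)} (hμ : (μ : nrm χ → ℂ) ≠ 1) :
    ∃ P : Sylow p G, inertia (nrm χ) μ = P := by
  have hidx := inertia_index_eq hG h hμ
  have h1 : IsPGroup p (inertia (nrm χ) μ) := by
    have h2 := Subgroup.index_mul_card (inertia (nrm χ) μ)
    have h3 := Subgroup.index_mul_card (Subgroup.centralizer ({x} : Set G))
    rw [hidx] at h2
    rw [index_centralizer] at h3
    have h4 : Nat.card (inertia (nrm χ) μ) = Nat.card (Subgroup.centralizer ({x} : Set G)) :=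
      Nat.eq_of_mul_eq_mul_left (cls_pos x) (by rw [h2, h3])
    obtain ⟨a, ha⟩ := IsPGroup.iff_card.1 (isPGroup_centralizer hG h hp.out hpg)
    exact IsPGroup.iff_card.2 ⟨a, by rw [h4, ha]⟩
  refine ⟨h1.toSylow ?_, rfl⟩
  rw [hidx]
  exact cls_coprime hG h hp.out hpg

theorem eq_nrm (hG : 2 < Nat.card G) (h : Dat χ x) {N : Subgroup G}
    (hN : ∀ g : G, g ∈ N ↔ (χ : G → ℂ) g ≠ 0) : N = nrm χ := by
  ext g
  rw [hN, ne_zero_iff hG h]

end Cfsg.Agent.H686.Gagola
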