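import Cfsg.Agent.H686.PGal

/-!
# `p`-groups whose nonlinear irreducible characters of equal degree are Galois conjugate: the
derived subgroup has order `p`.
-/

set_option autoImplicit false
open Cfsg Cfsg.Agent.Characters Cfsg.Agent.H686.CharKit
open Cfsg.Agent.CharactersDeep Cfsg.Agent.H686.PGal
open scoped ComplexConjugate commutatorElement

namespace Cfsg.Agent.H686.PGalCount

universe u

/-- The number of Galois conjugates of a character. -/
theorem card_conj_le {P : Type u} [Group P] [Finite P] (χ : IrrCharacter P) (m : ℕ) (hm0 : 0 < m)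
    (hm : ∀ g : P, g ^ m = 1) (hmc : ∀ k : ℕ, k.Coprime (Nat.card P) → k.Coprime m)
    (S : Finset (IrrCharacter P))
    (hS : ∀ ψ ∈ S, ∃ k : ℕ, Nat.Coprime k (Nat.card P) ∧
      ∀ g, (ψ : P → ℂ) g = (χ : P → ℂ) (g ^ k)) : S.card ≤ m.totient := by
  classical
  choose! k hk hk2 using hS
  rw [Nat.totient_eq_card_coprime]
  refine Finset.card_le_card_of_injOn (fun ψ => k ψ % m) ?_ ?_
  · intro ψ hψ
    simp only [Finset.coe_filter, Finset.mem_range, Set.mem_ofPred_eq]
    refine ⟨Nat.mod_lt _ hm0, ?_⟩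
    have h1 := (hmc _ (hk ψ hψ)).symm
    rw [Nat.coprime_iff_gcd_eq_one] at h1 ⊢
    rw [← h1, Nat.gcd_comm m (k ψ % m), Nat.gcd_comm m (k ψ)]
    conv_rhs => rw [← Nat.mod_add_div (k ψ) m]
    rw [Nat.gcd_add_mul_left_left]
  · intro ψ hψ ψ' hψ' h
    apply Subtype.ext
    funext g
    rw [hk2 ψ hψ, hk2 ψ' hψ', pow_eq_pow_mod (k ψ) (hm g), pow_eq_pow_mod (k ψ') (hm g)]
    exact congrArg (fun j => (χ : P → ℂ) (g ^ j)) h

theorem pow_mem_center {Q : Type u} [Group Q] {p : ℕ}
    (hle : commutator Q ≤ Subgroup.center Q) (hc : Nat.card (commutator Q) = p) (x : Q) :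
    x ^ p ∈ Subgroup.center Q := by
  rw [Subgroup.mem_center_iff]
  intro y
  have h1 : ⁅y, x⁆ ∈ commutator Q :=
    Subgroup.commutator_mem_commutator (Subgroup.mem_top _) (Subgroup.mem_top _)
  have h2 : y * x * y⁻¹ = ⁅y, x⁆ * x := by rw [commutatorElement_def]; group
  have h3 : Commute ⁅y, x⁆ x := (Subgroup.mem_center_iff.1 (hle h1) x).symm
  have h4 : ⁅y, x⁆ ^ p = 1 := by
    have h5 : (⟨⁅y, x⁆, h1⟩ : commutator Q) ^ Nat.card (commutator Q) = 1 := pow_card_eq_one'
    rw [hc] at h5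
    exact congrArg Subtype.val h5
  have h6 : y * x ^ p * y⁻¹ = x ^ p := by
    rw [← conj_pow, h2, h3.mul_pow, h4, one_mul]
  calc y * x ^ p = y * x ^ p * y⁻¹ * y := by group
    _ = x ^ p * y := by rw [h6]

/-- The squares of the degrees of the characters without `K` in the kernel. -/
theorem sum_not_le {P : Type u} [Group P] [Finite P] (K : Subgroup P) [K.Normal]
    [Fintype (IrrCharacter P)] [DecidablePred fun χ : IrrCharacter P => ¬ K ≤ chKer χ] :
    ∑ χ ∈ Finset.univ.filter (fun χ : IrrCharacter P => ¬ K ≤ chKer χ),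
      charDegree (χ : P → ℂ) ^ 2 + Nat.card (P ⧸ K) = Nat.card P := by
  classical
  have : Finite (IrrCharacter (P ⧸ K)) := Core.finite_irr
  have : Fintype (IrrCharacter (P ⧸ K)) := Fintype.ofFinite _
  have h1 : ∑ χ ∈ Finset.univ.filter (fun χ : IrrCharacter P => K ≤ chKer χ),
      charDegree (χ : P → ℂ) ^ 2 = Nat.card (P ⧸ K) := by
    rw [← sum_deg_sq (G := P ⧸ K), Finset.sum_subtype (p := fun χ => K ≤ chKer χ) _ (by simp)]
    refine (Fintype.sum_equiv (inflEquiv K) _ _ fun ψ => ?_).symm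
    rw [← charDegree_infl]
    rfl
  rw [← h1, ← sum_deg_sq (G := P), add_comm]
  rw [← Finset.sum_filter_add_sum_filter_not Finset.univ (fun χ : IrrCharacter P => K ≤ chKer χ)]

theorem geom_lt {p : ℕ} (hp : 2 ≤ p) (e : ℕ) : p * ∑ a ∈ Finset.range e, (p ^ a) ^ 2 < (p ^ e) ^ 2 := by
  induction e with
  | zero => simp
  | succ e ih =>
    rw [Finset.sum_range_succ, mul_add]
    have h1 : (p ^ (e + 1)) ^ 2 = p * p * (p ^ e) ^ 2 := by ring
    rw [h1]
    have h2 : 1 + p ≤ p * p := by nlinarith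
    calc p * ∑ a ∈ Finset.range e, (p ^ a) ^ 2 + p * (p ^ e) ^ 2
        < (p ^ e) ^ 2 + p * (p ^ e) ^ 2 := by omega
      _ = (1 + p) * (p ^ e) ^ 2 := by ring
      _ ≤ p * p * (p ^ e) ^ 2 := Nat.mul_le_mul_right _ h2


section Main

variable {P : Type u} [Group P] [Finite P] {p : ℕ} [Fact p.Prime]

/-- The centre of `P` is at least as large as the centre of `P / K`, if the latter is cyclic and
`K` is central of order `p`. -/
theorem card_center_le (K : Subgroup P) [K.Normal] (hK : K ≤ Subgroup.center P)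
    (hKc : Nat.card K = p) (hZ : IsCyclic (Subgroup.center (P ⧸ K))) :
    Nat.card (Subgroup.center (P ⧸ K)) ≤ Nat.card (Subgroup.center P) := by
  have hp : p.Prime := Fact.out
  obtain ⟨t, ht⟩ := IsCyclic.exists_generator (α := Subgroup.center (P ⧸ K))
  have hn : orderOf t = Nat.card (Subgroup.center (P ⧸ K)) :=
    orderOf_eq_card_of_forall_mem_zpowers ht
  obtain ⟨s, hs⟩ := QuotientGroup.mk_surjective (t : P ⧸ K)
  -- `s ^ p` is central
  have h1 : s ^ p ∈ Subgroup.center P := by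
    rw [Subgroup.mem_center_iff]
    intro y
    have h2 : ⁅y, s⁆ ∈ K := by
      rw [← QuotientGroup.eq_one_iff]
      have h3 := Subgroup.mem_center_iff.1 t.2 (y : P ⧸ K)
      rw [← hs] at h3
      have h4 : ((⁅y, s⁆ : P) : P ⧸ K) = ⁅(y : P ⧸ K), (s : P ⧸ K)⁆ :=
        map_commutatorElement (QuotientGroup.mk' K) y s
      rw [h4]
      exact commutatorElement_eq_one_iff_mul_comm.2 h3
    have h2' : y * s * y⁻¹ = ⁅y, s⁆ * s := by rw [commutatorElement_def]; group
    have h3 : Commute ⁅y, s⁆ s := (Subgroup.mem_center_iff.1 (hK h2) s).symm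
    have h4 : ⁅y, s⁆ ^ p = 1 := by
      have h5 : (⟨⁅y, s⁆, h2⟩ : K) ^ Nat.card K = 1 := pow_card_eq_one'
      rw [hKc] at h5
      exact congrArg Subtype.val h5
    have h6 : y * s ^ p * y⁻¹ = s ^ p := by
      rw [← conj_pow, h2', h3.mul_pow, h4, one_mul]
    calc y * s ^ p = y * s ^ p * y⁻¹ * y := by group
      _ = s ^ p * y := by rw [h6]
  -- the image of the centre
  have h2 : Subgroup.zpowers ((t : P ⧸ K) ^ p) ≤ (Subgroup.center P).map (QuotientGroup.mk' K) := by
    rw [Subgroup.zpowers_le]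
    exact ⟨s ^ p, h1, by rw [map_pow]; exact congrArg (· ^ p) hs⟩
  have h3 : Nat.card ((Subgroup.center P).map (QuotientGroup.mk' K)) * p
      = Nat.card (Subgroup.center P) := by
    have h4 : ((Subgroup.center P).map (QuotientGroup.mk' K)).index
        = (Subgroup.center P).index :=
      Subgroup.index_map_eq _ (QuotientGroup.mk'_surjective K)
        (by rw [QuotientGroup.ker_mk']; exact hK)
    have h5 := Subgroup.card_mul_index ((Subgroup.center P).map (QuotientGroup.mk' K))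
    have h6 := Subgroup.card_mul_index (Subgroup.center P)
    have h7 := Subgroup.card_eq_card_quotient_mul_card_subgroup K
    rw [hKc, ← h5, ← h6, h4] at h7
    have h8 : 0 < (Subgroup.center P).index := Nat.pos_of_ne_zero Subgroup.index_ne_zero_of_finite
    apply Nat.eq_of_mul_eq_mul_right h8
    rw [h7]; ring
  have h4 : orderOf ((t : P ⧸ K) ^ p) ≤ Nat.card ((Subgroup.center P).map (QuotientGroup.mk' K)) := by
    rw [← Nat.card_zpowers]
    exact Subgroup.card_le_of_le h2
  have h5 : orderOf t ≤ orderOf ((t : P ⧸ K) ^ p) * p := by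
    refine Nat.le_of_dvd (Nat.mul_pos (orderOf_pos _) hp.pos) ?_
    rw [← Subgroup.orderOf_coe]
    apply orderOf_dvd_of_pow_eq_one
    rw [mul_comm, pow_mul, pow_orderOf_eq_one]
  calc Nat.card (Subgroup.center (P ⧸ K)) = orderOf t := hn.symm
    _ ≤ orderOf ((t : P ⧸ K) ^ p) * p := h5
    _ ≤ Nat.card ((Subgroup.center P).map (QuotientGroup.mk' K)) * p := Nat.mul_le_mul_right _ h4
    _ = _ := h3

theorem count_contra (hP : IsPGroup p P) (K : Subgroup P) [K.Normal] (hK : K ≤ Subgroup.center P)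
    (hKc : Nat.card K = p) (hKP : K ≤ commutator P)
    (hQ : Nat.card (commutator (P ⧸ K)) = p) (h : GalProp P) : False := by
  classical
  have hp : p.Prime := Fact.out
  have : Finite (IrrCharacter P) := Core.finite_irr
  have : Fintype (IrrCharacter P) := Fintype.ofFinite _
  have hPQ : IsPGroup p (P ⧸ K) := hP.to_quotient K
  have hGQ : GalProp (P ⧸ K) := h.quotient K
  have hQc : IsCyclic (Subgroup.center (P ⧸ K)) := isCyclic_center hPQ hQ hGQ
  have hQne := commutator_ne_bot (P := P ⧸ K) hQ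
  obtain ⟨χ₀, hχ₀⟩ := exists_nonlinear hQne
  have hd := degree_sq hPQ hQ χ₀ hχ₀
  -- the degree is a power of `p`
  obtain ⟨N, hN⟩ := IsPGroup.iff_card.1 hPQ
  obtain ⟨e, -, he⟩ := (Nat.dvd_prime_pow hp).1
    (show charDegree (χ₀ : P ⧸ K → ℂ) ∣ p ^ N by
      rw [← hN, ← hd]
      exact (dvd_pow_self _ two_ne_zero).mul_right _)
  obtain ⟨z, -, hz⟩ := (Nat.dvd_prime_pow hp).1
    (show Nat.card (Subgroup.center (P ⧸ K)) ∣ p ^ N by
      rw [← hN, ← hd]
      exact dvd_mul_left _ _)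
  have hcardQ : Nat.card (P ⧸ K) = (p ^ e) ^ 2 * p ^ z := by rw [← hd, he, hz]
  have hcardP : Nat.card P = (p ^ e) ^ 2 * p ^ z * p := by
    rw [Subgroup.card_eq_card_quotient_mul_card_subgroup K, hcardQ, hKc]
  -- exponent
  have hexp : ∀ g : P, g ^ (p ^ (z + 2)) = 1 := by
    intro g
    have h1 : (g : P ⧸ K) ^ p ∈ Subgroup.center (P ⧸ K) :=
      pow_mem_center (commutator_le_center hPQ hQ) hQ _
    have h2 : (⟨(g : P ⧸ K) ^ p, h1⟩ : Subgroup.center (P ⧸ K)) ^ (p ^ z) = 1 := by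
      rw [← hz]; exact pow_card_eq_one'
    have h3 : ((g : P ⧸ K) ^ p) ^ (p ^ z) = 1 := congrArg Subtype.val h2
    have h4 : (g ^ p) ^ (p ^ z) ∈ K := (QuotientGroup.eq_one_iff _).1 h3
    have h5 : (⟨_, h4⟩ : K) ^ Nat.card K = 1 := pow_card_eq_one'
    rw [hKc] at h5
    have h6 : ((g ^ p) ^ (p ^ z)) ^ p = 1 := congrArg Subtype.val h5
    rw [← h6, ← pow_mul, ← pow_mul]
    congr 1
    ring
  have hPcop : ∀ k : ℕ, k.Coprime (Nat.card P) → k.Coprime (p ^ (z + 2)) := by
    intro k hk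
    apply Nat.Coprime.pow_right
    refine Nat.Coprime.coprime_dvd_right ?_ hk
    rw [← hKc]
    exact Subgroup.card_subgroup_dvd_card K
  have hZ : p ^ z ≤ Nat.card (Subgroup.center P) := by
    rw [← hz]
    exact card_center_le K hK hKc hQc
  obtain ⟨N', hN'⟩ := IsPGroup.iff_card.1 hP
  -- degrees of characters without `K` in the kernel
  have hdeg : ∀ χ : IrrCharacter P, ¬ K ≤ chKer χ →
      ∃ a < e, charDegree (χ : P → ℂ) = p ^ a := by
    intro χ hχ
    obtain ⟨a, ha, ha2⟩ := S1522.exists_pow_degree hp hN' (Subgroup.center P) le_rfl χ.2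
    have ha3 : charDegree (χ : P → ℂ) = p ^ a := by
      have := charDegree_irr χ
      rw [ha] at this
      exact_mod_cast this
    refine ⟨a, ?_, ha3⟩
    have h1 : p ^ (2 * a) * p ^ z ≤ (p ^ e) ^ 2 * p ^ z * p := by
      rw [← hcardP, ← Subgroup.index_mul_card (Subgroup.center P)]
      exact Nat.mul_le_mul
        (Nat.le_of_dvd (Nat.pos_of_ne_zero Subgroup.index_ne_zero_of_finite) ha2) hZ
    have h2 : p ^ (2 * a) * p ^ z ≤ p ^ (2 * e + z + 1) := by
      refine h1.trans (le_of_eq ?_)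
      ring
    rw [← pow_add] at h2
    have h3 := (Nat.pow_le_pow_iff_right hp.one_lt).1 h2
    have h4 : a ≤ e := by omega
    refine lt_of_le_of_ne h4 ?_
    rintro rfl
    apply hχ
    have h5 : charDegree (infl K χ₀ : P → ℂ) = charDegree (χ : P → ℂ) := by
      rw [charDegree_infl, he, ha3]
    obtain ⟨k, hk, hk2⟩ := h (infl K χ₀) χ (by
      rw [charDegree_infl]
      exact fun h => hχ₀ ((charDegree_eq_one_iff χ₀).1 h)) h5
    rw [chKer_eq_of_conj hk hk2]
    exact le_chKer_infl K χ₀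
  -- the counting
  set T := Finset.univ.filter (fun χ : IrrCharacter P => ¬ K ≤ chKer χ) with hT
  have hsum := sum_not_le K
  rw [← hT] at hsum
  have hbound : ∑ χ ∈ T, charDegree (χ : P → ℂ) ^ 2
      ≤ ∑ a ∈ Finset.range e, (p ^ (z + 2)).totient * (p ^ a) ^ 2 := by
    have h1 : ∀ χ ∈ T, Nat.log p (charDegree (χ : P → ℂ)) ∈ Finset.range e := by
      intro χ hχ
      obtain ⟨a, ha, ha2⟩ := hdeg χ (Finset.mem_filter.1 hχ).2
      rw [ha2, Nat.log_pow hp.one_lt]
      exact Finset.mem_range.2 ha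
    rw [← Finset.sum_fiberwise_of_maps_to h1]
    refine Finset.sum_le_sum fun a _ => ?_
    set T' := T.filter (fun χ : IrrCharacter P => Nat.log p (charDegree (χ : P → ℂ)) = a) with hT'
    have h2 : ∀ χ ∈ T', charDegree (χ : P → ℂ) = p ^ a := by
      intro χ hχ
      obtain ⟨h3, h4⟩ := Finset.mem_filter.1 hχ
      obtain ⟨b, hb, hb2⟩ := hdeg χ (Finset.mem_filter.1 h3).2
      rw [hb2, Nat.log_pow hp.one_lt] at h4
      rw [hb2, h4]
    rw [Finset.sum_congr rfl fun χ hχ => by rw [h2 χ hχ], Finset.sum_const, smul_eq_mul]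
    refine Nat.mul_le_mul_right _ ?_
    rcases T'.eq_empty_or_nonempty with h3 | ⟨χ₁, hχ₁⟩
    · rw [h3]; simp
    · refine card_conj_le χ₁ _ (pow_pos hp.pos _) hexp hPcop T' fun ψ hψ => ?_
      refine h χ₁ ψ ?_ (by rw [h2 _ hχ₁, h2 _ hψ])
      intro h4
      refine (Finset.mem_filter.1 (Finset.mem_filter.1 hχ₁).1).2 ?_
      exact hKP.trans (commutator_le_chKer ((charDegree_eq_one_iff χ₁).1 h4))
  rw [← Finset.mul_sum, Nat.totient_prime_pow_succ hp] at hbound
  have hg := geom_lt hp.two_le e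
  set S := ∑ a ∈ Finset.range e, (p ^ a) ^ 2
  have hp1 : 1 ≤ p - 1 := Nat.le_sub_of_add_le hp.two_le
  rw [hcardP, hcardQ] at hsum
  have h1 : (p ^ e) ^ 2 * p ^ z * p = (p ^ e) ^ 2 * p ^ z * (p - 1) + (p ^ e) ^ 2 * p ^ z := by
    rw [Nat.mul_sub_one]
    exact (Nat.sub_add_cancel (Nat.le_mul_of_pos_right _ hp.pos)).symm
  rw [h1] at hsum
  have h2 : (p ^ e) ^ 2 * p ^ z * (p - 1) ≤ p ^ (z + 1) * (p - 1) * S := by
    calc (p ^ e) ^ 2 * p ^ z * (p - 1) = ∑ χ ∈ T, charDegree (χ : P → ℂ) ^ 2 :=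
          (Nat.add_right_cancel hsum).symm
      _ ≤ _ := hbound
  have h3 : p ^ (z + 1) * (p - 1) * S = p ^ z * (p - 1) * (p * S) := by ring
  have h4 : p ^ z * (p - 1) * (p * S) < p ^ z * (p - 1) * (p ^ e) ^ 2 :=
    Nat.mul_lt_mul_of_pos_left hg (Nat.mul_pos (pow_pos hp.pos _) hp1)
  have h5 : (p ^ e) ^ 2 * p ^ z * (p - 1) = p ^ z * (p - 1) * (p ^ e) ^ 2 := by ring
  omega

theorem card_commutator_aux (n : ℕ) : ∀ (P : Type u) [Group P] [Finite P], Nat.card P = n →
    IsPGroup p P → commutator P ≠ ⊥ → GalProp P → Nat.card (commutator P) = p := by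
  have hp : p.Prime := Fact.out
  induction n using Nat.strong_induction_on with
  | _ n ih =>
    intro P _ _ hn hP hna hG
    by_contra hne
    obtain ⟨z, hz, hzc, hzo⟩ :=
      Transfer.PGroupNormal.exists_mem_inf_center_orderOf hP (commutator P) hna
    set K := Subgroup.zpowers z with hK
    have hKc : K ≤ Subgroup.center P := by rw [hK, Subgroup.zpowers_le]; exact hzc
    have hKP : K ≤ commutator P := by rw [hK, Subgroup.zpowers_le]; exact hz
    have hKcard : Nat.card K = p := by rw [hK, Nat.card_zpowers, hzo]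
    have hKn : K.Normal := by
      constructor
      intro x hx g
      rw [Subgroup.mem_center_iff.1 (hKc hx) g, mul_assoc, mul_inv_cancel, mul_one]
      exact hx
    have hcomm : commutator (P ⧸ K) = (commutator P).map (QuotientGroup.mk' K) := by
      rw [commutator_def, commutator_def, Subgroup.map_commutator,
        Subgroup.map_top_of_surjective _ (QuotientGroup.mk'_surjective K)]
    have hQne : commutator (P ⧸ K) ≠ ⊥ := by
      intro h
      rw [hcomm, Subgroup.map_eq_bot_iff, QuotientGroup.ker_mk'] at h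
      apply hne
      rw [le_antisymm h hKP, hKcard]
    have hlt : Nat.card (P ⧸ K) < n := by
      rw [← hn, Subgroup.card_eq_card_quotient_mul_card_subgroup K, hKcard]
      exact lt_mul_of_one_lt_right Nat.card_pos hp.one_lt
    have h1 := ih _ hlt (P ⧸ K) rfl (hP.to_quotient K) hQne (hG.quotient K)
    exact count_contra hP K hKc hKcard hKP h1 hG

theorem galProp_iff (hP : IsPGroup p P) (hna : commutator P ≠ ⊥) :
    GalProp P ↔ IsCyclic (Subgroup.center P) ∧ Nat.card (commutator P) = p := by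
  constructor
  · intro h
    have h1 := card_commutator_aux (p := p) _ P rfl hP hna h
    exact ⟨isCyclic_center hP h1 h, h1⟩
  · rintro ⟨h1, h2⟩
    exact galProp_of hP h2 h1

end Main

end Cfsg.Agent.H686.PGalCount
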